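import Mathlib
import Cfsg.Agent.Perm.BGroup

/-! A Schur ring lemma over a group of order `p ^ 2` (used for Atkinson's theorem). -/

set_option autoImplicit false

namespace Cfsg.Agent.TwoTr.Atk

open Finset Polynomial Cfsg.Agent.Perm.BGroup

theorem coeff_eq_of_pow_rat {p : ℕ} (hp : p.Prime) {ζ : ℂ} (hζ : IsPrimitiveRoot ζ p)
    (α : Fin p → ℚ) (b : ℚ) (h : (∑ j, (α j : ℂ) * ζ ^ j.val) ^ p = b) :
    ∃ e : Fin p, ∀ i j, i ≠ e → j ≠ e → α i = α j := by
  set z := ∑ j, (α j : ℂ) * ζ ^ j.val with hz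
  have hb : ∃ m : ℚ, m ^ p = b := by
    by_contra hb
    push Not at hb
    have hirr := (X_pow_sub_C_irreducible_iff_of_prime hp).2 hb
    have h1 : minpoly ℚ z = X ^ p - C b :=
      (minpoly.eq_of_irreducible_of_monic hirr (by simp [h]) (monic_X_pow_sub_C b hp.ne_zero)).symm
    have hint : IsIntegral ℚ ζ := (hζ.isIntegral hp.pos).tower_top
    have hmem : z ∈ IntermediateField.adjoin ℚ {ζ} := sum_mem fun j _ =>
      mul_mem (SubfieldClass.ratCast_mem _ _)
        (pow_mem (IntermediateField.mem_adjoin_simple_self ℚ ζ) _)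
    have hfd := IntermediateField.adjoin.finiteDimensional hint
    have h2 : (minpoly ℚ z).natDegree ≤ Module.finrank ℚ (IntermediateField.adjoin ℚ {ζ}) := by
      have h3 : _ = minpoly ℚ z := 
        IntermediateField.minpoly_eq (S := IntermediateField.adjoin ℚ {ζ}) ⟨z, hmem⟩
      rw [← h3]
      exact minpoly.natDegree_le _
    rw [IntermediateField.adjoin.finrank hint, ← cyclotomic_eq_minpoly_rat hζ hp.pos,
      natDegree_cyclotomic, Nat.totient_prime hp, h1, natDegree_X_pow_sub_C] at h2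
    have := hp.pos
    omega
  obtain ⟨m, rfl⟩ := hb
  have : NeZero p := ⟨hp.ne_zero⟩
  obtain ⟨e, he, h3⟩ : ∃ e < p, z = m * ζ ^ e := by
    by_cases hm : m = 0
    · exact ⟨0, hp.pos, by simpa [hm, hp.ne_zero] using h⟩
    · have hm' : (m : ℂ) ≠ 0 := by exact_mod_cast hm
      obtain ⟨e, he, h4⟩ := hζ.eq_pow_of_pow_eq_one (ξ := z / m)
        (by rw [div_pow, h]; push_cast; exact div_self (pow_ne_zero _ hm'))
      exact ⟨e, he, by rw [h4]; field_simp⟩
  refine ⟨⟨e, he⟩, fun i j hi hj => ?_⟩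
  have h5 := (hζ.sum_eq_zero_iff_forall_eq hp fun j => α j - if j = ⟨e, he⟩ then m else 0).1 (by
    simp only [Rat.cast_sub, sub_mul, sum_sub_distrib, ← hz, h3]
    rw [sum_eq_single ⟨e, he⟩ (fun j _ hj => by simp [hj]) (by simp)]
    simp) i j
  simpa [hi, hj] using h5

variable {T H : Type*} [Group T] [CommGroup H] [Finite H] [MulAction T H] {ι : H →* T}

theorem schur_false {p : ℕ} (hp : p.Prime) (hp2 : p ≠ 2) (hι : ∀ h x : H, ι h • x = h * x)
    (hH : Nat.card H = p ^ 2) {c y : H} (hc : orderOf c = p)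
    (htr : ∀ x ∈ Subgroup.zpowers c, ∀ x' ∈ Subgroup.zpowers c, x ≠ 1 → x' ≠ 1 →
      ∃ s : T, s • (1 : H) = 1 ∧ s • x = x')
    (X : Set H) (hX : SInv T (· ∈ X)) (hXy : ∀ x ∈ X, y⁻¹ * x ∈ Subgroup.zpowers c)
    {a a' b b' : H} (ha : a ∈ X) (ha' : a' ∈ X) (haa : a ≠ a') (hb : b ∉ X) (hb' : b' ∉ X)
    (hbb : b ≠ b') (hby : y⁻¹ * b ∈ Subgroup.zpowers c) (hby' : y⁻¹ * b' ∈ Subgroup.zpowers c) :
    False := by
  classical
  have := Fintype.ofFinite H
  have := Fact.mk hp
  set Q := Subgroup.zpowers c with hQ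
  have hcQ : Nat.card Q = p := by rw [Nat.card_zpowers, hc]
  have hQp : ∀ x ∈ Q, x ^ p = 1 := fun x hx =>
    orderOf_dvd_iff_pow_eq_one.1 (hcQ ▸ Q.orderOf_dvd_natCard hx)
  have hyp : y ^ p ∈ Q := by
    have h1 := Q.card_mul_index
    rw [hcQ, hH, pow_two, Nat.mul_right_inj hp.ne_zero] at h1
    exact h1 ▸ Q.pow_index_mem y
  let Y : Finset H := univ.filter (· ∈ X)
  have hinv : ∀ (R : Type) [CommRing R],
      SInv T (∑ x ∈ Y, MonoidAlgebra.single x (1 : R)).coeff := by
    intro R _ s hs x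
    simp only [MonoidAlgebra.coeff_sum, MonoidAlgebra.coeff_single, Finsupp.finsetSum_apply,
      Finsupp.single_apply, sum_ite_eq', Y, mem_filter, mem_univ, true_and]
    exact if_congr (hX s hs x).to_iff rfl rfl
  have hxp : ∀ x ∈ X, x ^ p = y ^ p := fun x hx => by
    have := hQp _ (hXy x hx)
    rwa [mul_pow, inv_pow, inv_mul_eq_one, eq_comm] at this
  have hYp : ¬ p ∣ #Y := by
    have h1 : #(insert b Y) ≤ Nat.card Q := by
      rw [Nat.card_eq_fintype_card, Fintype.card_subtype]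
      refine card_le_card_of_injOn (fun x => y⁻¹ * x) (fun x hx => ?_) fun x _ x' _ h =>
        mul_left_cancel h
      rcases mem_insert.1 (mem_coe.1 hx) with rfl | hx
      · simpa using hby
      · simpa using hXy x (by simpa [Y] using hx)
    rw [card_insert_of_notMem (by simpa [Y] using hb), hcQ] at h1
    exact fun h => absurd (Nat.le_of_dvd (card_pos.2 ⟨a, by simpa [Y] using ha⟩) h) (by omega)
  have hy1 : y ^ p = 1 := by
    by_contra hy1
    have : CharP (MonoidAlgebra (ZMod p) H) p :=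
      charP_of_injective_algebraMap (algebraMap (ZMod p) (MonoidAlgebra (ZMod p) H)).injective p
    have h1 := sinv_coeff_pow hι (hinv (ZMod p)) p
    have h2 : (y ^ p) ^ 2 ≠ 1 := fun h => hy1 (by
      have := Nat.Coprime.eq_one_of_dvd ((Nat.coprime_primes hp Nat.prime_two).2 hp2 |>.coprime_dvd_left
        (orderOf_dvd_of_pow_eq_one (hQp _ hyp))) (orderOf_dvd_of_pow_eq_one h)
      exact orderOf_eq_one_iff.1 this)
    obtain ⟨s, hs, hs'⟩ := htr _ hyp _ (pow_mem hyp 2) hy1 h2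
    have h3 := h1 s hs (y ^ p)
    rw [hs', sum_pow_char, sum_congr rfl (g := fun _ => MonoidAlgebra.single (y ^ p) (1 : ZMod p))
      (fun x hx => by rw [MonoidAlgebra.single_pow, one_pow, hxp x (by simpa [Y] using hx)])] at h3
    have h4 : y ^ p ≠ (y ^ p) ^ 2 := fun h => hy1 (by rwa [pow_two, left_eq_mul] at h)
    rw [MonoidAlgebra.coeff_sum, Finsupp.finsetSum_apply, Finsupp.finsetSum_apply] at h3
    simp only [MonoidAlgebra.coeff_single,
      Finsupp.single_apply, if_neg h4, sum_const, if_true, nsmul_eq_mul, mul_one, mul_zero] at h3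
    exact hYp ((ZMod.natCast_eq_zero_iff _ _).1 h3.symm)
  set A := ∑ x ∈ Y, MonoidAlgebra.single x (1 : ℚ) with hA
  have hsupp : ∀ n : ℕ, ∀ x, (A ^ n).coeff x ≠ 0 → (y ^ n)⁻¹ * x ∈ Q := by
    intro n
    induction n with
    | zero =>
      intro x hx
      rw [pow_zero, MonoidAlgebra.one_def, MonoidAlgebra.coeff_single, Finsupp.single_apply] at hx
      obtain rfl : 1 = x := by by_contra h; exact hx (if_neg h)
      simp
    | succ n ih =>
      intro x hx
      rw [pow_succ, MonoidAlgebra.coeff_mul_apply_left, Finsupp.sum_fintype _ _ (by simp)] at hx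
      obtain ⟨w, -, hw⟩ := exists_ne_zero_of_sum_ne_zero hx
      have h1 := ih w (left_ne_zero_of_mul hw)
      have h2 : w⁻¹ * x ∈ X := by
        by_contra h
        apply right_ne_zero_of_mul hw
        simp [hA, MonoidAlgebra.coeff_sum, Finsupp.finsetSum_apply, Finsupp.single_apply, Y, h]
      convert mul_mem h1 (hXy _ h2) using 1
      rw [pow_succ, mul_inv_rev, mul_left_comm y⁻¹, mul_assoc, mul_assoc, mul_inv_cancel_left,
        mul_left_comm]
  have hc1 : c ≠ 1 := fun h => hp.one_lt.ne (by rw [← hc, h, orderOf_one])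
  have : NeZero ((Monoid.exponent H : ℕ) : ℂ) :=
    ⟨Nat.cast_ne_zero.2 Monoid.exponent_ne_zero_of_finite⟩
  obtain ⟨ψ, hψ⟩ := CommGroup.exists_apply_ne_one_of_hasEnoughRootsOfUnity H ℂ hc1
  let χ : H →* ℂ := (Units.coeHom ℂ).comp ψ
  have hζ : IsPrimitiveRoot (χ c) p := by
    have h1 : orderOf (χ c) = p := orderOf_eq_prime
      (by rw [← map_pow, ← hc, pow_orderOf_eq_one, map_one]) fun h => hψ (Units.ext h)
    exact h1 ▸ IsPrimitiveRoot.orderOf _
  let e : Fin p ≃ Q := (finCongr hc.symm).trans (finEquivZPowers (isOfFinOrder_of_finite c))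
  have he : ∀ j : Fin p, (e j : H) = c ^ j.val := fun j => rfl
  have hsum : ∀ f : H → ℂ, (∀ x, f x ≠ 0 → x ∈ Q) → ∑ x, f x = ∑ j : Fin p, f (c ^ j.val) := by
    intro f hf
    rw [← sum_filter_of_ne (p := (· ∈ Q)) fun x _ => hf x,
      sum_subtype (p := (· ∈ Q)) _ (by simp), ← e.sum_comp]
    rfl
  let L := MonoidAlgebra.lift ℚ ℂ H χ
  have hL : ∀ B : MonoidAlgebra ℚ H, L B = ∑ x, (B.coeff x : ℂ) * χ x := fun B => by
    rw [MonoidAlgebra.lift_apply, Finsupp.sum_fintype _ _ (by simp)]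
    simp [Algebra.smul_def]
  obtain ⟨e0, h0⟩ := coeff_eq_of_pow_rat hp hζ (fun j => if y * c ^ j.val ∈ X then 1 else 0)
    ((A ^ p).coeff 1 - (A ^ p).coeff c) (by
      have h1 : L A = χ y * ∑ j : Fin p, ((if y * c ^ j.val ∈ X then 1 else 0 : ℚ) : ℂ) *
          χ c ^ j.val := by
        rw [hL, ← Equiv.sum_comp (Equiv.mulLeft y), hsum, mul_sum]
        · refine sum_congr rfl fun j _ => ?_
          simp [hA, MonoidAlgebra.coeff_sum, Finsupp.finsetSum_apply, Finsupp.single_apply, Y,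
            mul_left_comm]
        · intro x hx
          have h2 : y * x ∈ X := by
            by_contra h
            apply left_ne_zero_of_mul hx
            simp [hA, MonoidAlgebra.coeff_sum, Finsupp.finsetSum_apply, Finsupp.single_apply, Y, h]
          simpa using hXy _ h2
      have h2 := congrArg (· ^ p) h1
      simp only [mul_pow, ← map_pow χ y, hy1, map_one, one_mul, ← map_pow L] at h2
      rw [← h2, hL, hsum _ (fun x hx => by
        simpa [hy1] using hsupp p x (by exact_mod_cast left_ne_zero_of_mul hx))]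
      have h3 : ∀ j : Fin p, (((A ^ p).coeff (c ^ j.val) : ℚ) : ℂ) * χ (c ^ j.val) =
          (A ^ p).coeff c * χ c ^ j.val +
            if j = ⟨0, hp.pos⟩ then (((A ^ p).coeff 1 - (A ^ p).coeff c : ℚ) : ℂ) else 0 := by
        intro j
        split_ifs with hj
        · simp [hj]
        · obtain ⟨s, hs, hs'⟩ := htr c (Subgroup.mem_zpowers c) (c ^ j.val)
            (pow_mem (Subgroup.mem_zpowers c) _) hc1 (pow_ne_one_of_lt_orderOf
              (fun h => hj (Fin.ext h)) (hc ▸ j.2))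
          rw [← hs', sinv_coeff_pow hι (hinv ℚ) p s hs c, hs', map_pow, add_zero]
      rw [sum_congr rfl fun j _ => h3 j, sum_add_distrib, ← mul_sum, Fin.sum_univ_eq_sum_range
        (fun j => χ c ^ j), hζ.geom_sum_eq_zero hp.one_lt]
      simp)
  have key : ∀ u v : H, y⁻¹ * u ∈ Q → y⁻¹ * v ∈ Q → u ≠ v →
      ∃ j : Fin p, j ≠ e0 ∧ (y * c ^ j.val = u ∨ y * c ^ j.val = v) := by
    intro u v hu hv huv
    obtain ⟨i, hi⟩ := e.surjective ⟨_, hu⟩
    obtain ⟨j, hj⟩ := e.surjective ⟨_, hv⟩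
    have hi' : y * c ^ i.val = u := by rw [← he, hi]; simp
    have hj' : y * c ^ j.val = v := by rw [← he, hj]; simp
    by_cases h : i = e0
    · exact ⟨j, fun h' => huv (by rw [← hi', ← hj', h, h']), Or.inr hj'⟩
    · exact ⟨i, h, Or.inl hi'⟩
  obtain ⟨i, hi, hi'⟩ := key a a' (hXy a ha) (hXy a' ha') haa
  obtain ⟨j, hj, hj'⟩ := key b b' hby hby' hbb
  have h6 := h0 i j hi hj
  rw [if_pos (by rcases hi' with h | h <;> rwa [h]),
    if_neg (by rcases hj' with h | h <;> rwa [h])] at h6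
  exact one_ne_zero h6

end Cfsg.Agent.TwoTr.Atk
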