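import Mathlib
import Cfsg.Agent.TwoTr.Basic

/-! Atkinson's theorem on doubly transitive groups of degree `p ^ 2 + 1`: set-up. -/

set_option autoImplicit false
set_option linter.unusedSectionVars false

namespace Cfsg.Agent.TwoTr

open MulAction Subgroup
open scoped Pointwise

/-- a doubly transitive group of degree `p ^ 2 + 1` whose point stabilizers have blocks of size `p` -/
structure Atk (G Ω : Type*) [Group G] [MulAction G Ω] (p : ℕ) where
  Δ : Ω → Ω → Set Ω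
  hp : p.Prime
  h2 : ∀ a b c d : Ω, a ≠ b → c ≠ d → ∃ g : G, g • a = c ∧ g • b = d
  faith : ∀ g : G, (∀ x : Ω, g • x = x) → g = 1
  card : Nat.card Ω = p ^ 2 + 1
  smul : ∀ (g : G) a b c, c ∈ Δ a b → g • c ∈ Δ (g • a) (g • b)
  self : ∀ a b, b ≠ a → b ∈ Δ a b
  ne : ∀ a b c, c ∈ Δ a b → c ≠ a
  eq : ∀ a b c, c ∈ Δ a b → Δ a c = Δ a b
  ncard : ∀ a b, b ≠ a → (Δ a b).ncard = p

namespace Atk

variable {G Ω : Type*} [Group G] [Finite G] [MulAction G Ω] [Finite Ω] {p : ℕ} (A : Atk G Ω p)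
include A

theorem smul_iff (g : G) {a b c : Ω} : g • c ∈ A.Δ (g • a) (g • b) ↔ c ∈ A.Δ a b :=
  ⟨fun h => by simpa using A.smul g⁻¹ _ _ _ h, A.smul g a b c⟩

theorem smul_set (g : G) (a b : Ω) : g • A.Δ a b = A.Δ (g • a) (g • b) := by
  ext c
  rw [Set.mem_smul_set_iff_inv_smul_mem, ← A.smul_iff g, smul_inv_smul]

theorem smul_mem {g : G} {a b c : Ω} (ha : g • a = a) (hb : g • b ∈ A.Δ a b) (hc : c ∈ A.Δ a b) :
    g • c ∈ A.Δ a b := by
  have := A.smul g a b c hc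
  rwa [ha, A.eq _ _ _ hb] at this

theorem smul_mem' {g : G} {a b c : Ω} (hab : b ≠ a) (ha : g • a = a) (hb : g • b = b)
    (hc : c ∈ A.Δ a b) : g • c ∈ A.Δ a b := A.smul_mem ha (by rw [hb]; exact A.self a b hab) hc

theorem exists_ne (a b : Ω) (hab : b ≠ a) (c : Ω) : ∃ x ∈ A.Δ a b, x ≠ c :=
  Set.exists_ne_of_one_lt_ncard (by rw [A.ncard a b hab]; exact A.hp.one_lt) c

theorem design {X : Set Ω} {a b c : Ω} (hab : b ≠ a) (ha : a ∈ X) (hb : b ∈ X) (hc : c ∈ X)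
    (hca : c ≠ a) (hcb : c ≠ b) (hX : X ≠ Set.univ)
    (hD : ∀ g : G, g • a = a → g • b = b → g ∈ stabilizer G X)
    (htr : ∀ x ∈ X, x ≠ a → ∃ g ∈ stabilizer G X, g • a = a ∧ g • b = x) :
    X.ncard = p + 1 ∧ ∀ g ∈ stabilizer G X, g • a = a := by
  have hd : 0 < Nat.card ↥(stabilizer G a ⊓ stabilizer G b) := Nat.card_pos
  have h1 := card_of_orbit (stabilizer G X ⊓ stabilizer G a) b (X \ {a}) fun x =>
    ⟨fun hx => (htr x hx.1 hx.2).imp fun g hg => ⟨⟨hg.1, hg.2.1⟩, hg.2.2⟩, by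
      rintro ⟨g, hg, rfl⟩
      exact ⟨mem_stab_set.1 hg.1 b hb, fun h => hab (smul_left_cancel g
        ((Set.mem_singleton_iff.1 h).trans (mem_stabilizer_iff.1 hg.2).symm))⟩⟩
  rw [inf_assoc, inf_eq_right.2 (show stabilizer G a ⊓ stabilizer G b ≤ stabilizer G X from
    fun g hg => hD g hg.1 hg.2),
    Set.ncard_sdiff_singleton_of_mem ha] at h1
  have h3 := card_dvd_of_le (inf_le_right (a := stabilizer G X) (b := stabilizer G a))
  rw [h1, card_stab_one A.h2 hab.symm, A.card, Nat.add_sub_cancel, Nat.mul_dvd_mul_iff_right hd] at h3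
  have h4 : 2 < X.ncard := (Set.two_lt_ncard_iff X.toFinite).2 ⟨a, b, c, ha, hb, hc, hab.symm,
    hca.symm, hcb.symm⟩
  have h5 : X.ncard < p ^ 2 + 1 := by
    rw [← A.card, ← Set.ncard_univ]
    exact Set.ncard_lt_ncard (Set.ssubset_univ_iff.2 hX)
  have h6 : X.ncard = p + 1 := by
    obtain ⟨i, hi, h⟩ := (Nat.dvd_prime_pow A.hp).1 h3
    interval_cases i
    · rw [pow_zero] at h; omega
    · rw [pow_one] at h; omega
    · omega
  refine ⟨h6, fun g hg => by_contra fun hga => ?_⟩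
  have h7 := card_of_orbit (stabilizer G X) a X fun x => ⟨fun hx => ?_, by
    rintro ⟨g, hg, rfl⟩; exact mem_stab_set.1 hg a ha⟩
  · have h8 := card_subgroup_dvd_card (stabilizer G X)
    rw [h7, h1, card_eq_two A.h2 hab.symm, A.card, h6, Nat.add_sub_cancel, Nat.add_sub_cancel,
      ← mul_assoc, ← mul_assoc, Nat.mul_dvd_mul_iff_right hd, pow_two, ← mul_assoc,
      Nat.mul_dvd_mul_iff_right A.hp.pos] at h8
    have h9 : (p + 1 : ℤ) ∣ 2 := by
      have h10 : (p + 1 : ℤ) ∣ (p * p + 1) * p := by exact_mod_cast h8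
      have h11 := dvd_sub (dvd_mul_right (p + 1 : ℤ) (p * p - p + 2)) h10
      rwa [show (p + 1 : ℤ) * (p * p - p + 2) - (p * p + 1) * p = 2 by ring] at h11
    have := Int.le_of_dvd two_pos h9
    have := A.hp.two_le
    omega
  · by_cases hxa : x = a
    · exact ⟨1, one_mem _, by simp [hxa]⟩
    · obtain ⟨k, hk, -, h8⟩ := htr x hx hxa
      obtain ⟨k', hk', -, h9⟩ := htr _ (mem_stab_set.1 hg a ha) hga
      exact ⟨k * k'⁻¹ * g, mul_mem (mul_mem hk (inv_mem hk')) hg, by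
        rw [mul_smul, mul_smul, ← h9, inv_smul_smul, h8]⟩

theorem ncard_insert {a b : Ω} (hab : b ≠ a) : (insert a (A.Δ a b)).ncard = p + 1 := by
  rw [Set.ncard_insert_of_notMem (fun h => A.ne _ _ _ h rfl), A.ncard a b hab]

theorem mem_stab_insert {a b : Ω} {g : G} (ha : g • a = a) (hb : g • b ∈ A.Δ a b) :
    g ∈ stabilizer G (insert a (A.Δ a b)) := mem_stab_set.2 (by
  rintro x (rfl | hx)
  · exact Or.inl ha
  · exact Or.inr (A.smul_mem ha hb hx))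

theorem design_Δ {a b : Ω} (hab : b ≠ a) {g : G} (hg : g ∈ stabilizer G (insert a (A.Δ a b))) :
    g • a = a := by
  obtain ⟨c, hc, hcb⟩ := A.exists_ne a b hab b
  refine (A.design hab (Or.inl rfl) (Or.inr (A.self a b hab)) (Or.inr hc) (A.ne _ _ _ hc) hcb
    (fun h => ?_) (fun g ha hb => A.mem_stab_insert ha (by rw [hb]; exact A.self a b hab))
    fun x hx hxa => ?_).2 g hg
  · have := A.ncard_insert hab
    rw [h, Set.ncard_univ, A.card] at this
    have := A.hp.two_le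
    nlinarith
  · obtain ⟨g, h1, h2⟩ := A.h2 a b a x hab.symm hxa.symm
    exact ⟨g, A.mem_stab_insert h1 (h2 ▸ hx.resolve_left hxa), h1, h2⟩

/-- two-point stabilizers have order prime to `p` -/
theorem eq_one_of_pow {a b : Ω} (hab : b ≠ a) {x : G} (ha : x • a = a) (hb : x • b = b)
    (hx : x ^ p = 1) : x = 1 := by
  let E : Ω → Ω → Set G := fun a b => {x | x • a = a ∧ x • b = b ∧ x ^ p = 1}
  let X : Ω → Ω → Set Ω := fun a b => {c | ∀ x ∈ E a b, x • c = c}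
  have hE : ∀ (g : G) a b x, x ∈ E a b → g * x * g⁻¹ ∈ E (g • a) (g • b) :=
    fun g a b x ⟨h1, h2, h3⟩ => ⟨by simp [mul_smul, h1], by simp [mul_smul, h2], by
      rw [conj_pow, h3]; simp⟩
  have hX : ∀ (g : G) a b c, c ∈ X a b → g • c ∈ X (g • a) (g • b) := fun g a b c h x hx => by
    have := h _ (by simpa using hE g⁻¹ _ _ x hx)
    rwa [mul_smul, mul_smul, inv_smul_eq_iff] at this
  have hΔ : A.Δ a b ⊆ X a b := fun c hc x hx => by
    by_cases hcb : c = b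
    · exact hcb ▸ hx.2.1
    refine fix_of_pow_prime A.hp hx.2.2 (Y := A.Δ a b \ {b}) (fun y hy =>
      ⟨A.smul_mem' hab hx.1 hx.2.1 hy.1, fun h => hy.2 (smul_left_cancel x
        ((Set.mem_singleton_iff.1 h).trans hx.2.1.symm))⟩) ?_ ⟨hc, hcb⟩
    rw [Set.ncard_sdiff_singleton_of_mem (A.self a b hab), A.ncard a b hab]
    exact Nat.sub_one_lt A.hp.ne_zero
  by_cases hu : X a b = Set.univ
  · exact A.faith x fun c => (hu ▸ Set.mem_univ c : c ∈ X a b) x ⟨ha, hb, hx⟩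
  obtain ⟨c, hc, hcb⟩ := A.exists_ne a b hab b
  have h1 := (A.design (X := X a b) hab (fun x hx => hx.1) (fun x hx => hx.2.1) (hΔ hc)
    (A.ne _ _ _ hc) hcb hu (fun g h1 h2 => mem_stab_set.2 fun c hc => by
      simpa [h1, h2] using hX g a b c hc) fun y hy hya => ?_).2
  · obtain ⟨g, h2, h3⟩ := A.h2 a b b a hab.symm hab
    refine absurd (h2.symm.trans (h1 g (mem_stab_set.2 fun c hc x hx => ?_))) hab
    have := hX g a b c hc
    rw [h2, h3] at this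
    exact this x ⟨hx.2.1, hx.1, hx.2.2⟩
  · obtain ⟨g, h1, h2⟩ := A.h2 a b a y hab.symm hya.symm
    have h3 : E a b = E a y := by
      refine Set.eq_of_subset_of_ncard_le (fun x hx => ⟨hx.1, hy x hx, hx.2.2⟩) ?_
      refine Set.ncard_le_ncard_of_injOn (fun x => g⁻¹ * x * g⁻¹⁻¹) (fun x hx => ?_)
        fun x _ x' _ h => by simpa using h
      have := hE g⁻¹ a y x hx
      rwa [inv_smul_eq_iff.2 h1.symm, inv_smul_eq_iff.2 h2.symm] at this
    refine ⟨g, mem_stab_set.2 fun c hc => ?_, h1, h2⟩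
    have := hX g a b c hc
    rw [h1, h2] at this
    exact fun x hx => this x (h3 ▸ hx)

theorem not_dvd_card {a b : Ω} (hab : b ≠ a) {H : Subgroup G} (ha : ∀ g ∈ H, g • a = a)
    (hb : ∀ g ∈ H, g • b = b) : ¬ p ∣ Nat.card H := fun h => by
  have := Fact.mk A.hp
  obtain ⟨x, hx⟩ := exists_prime_orderOf_dvd_card' p h
  rw [← orderOf_coe] at hx
  have h1 := A.eq_one_of_pow hab (ha _ x.2) (hb _ x.2) (hx ▸ pow_orderOf_eq_one _)
  exact A.hp.one_lt.ne (by rw [← hx, h1, orderOf_one])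

/-- the kernel of the action of `G_a` on the blocks -/
def K (a : Ω) : Subgroup G where
  carrier := {g | g • a = a ∧ ∀ x, x ≠ a → g • x ∈ A.Δ a x}
  one_mem' := ⟨one_smul _ _, fun x hx => by simpa using A.self a x hx⟩
  mul_mem' := by
    rintro g h ⟨h1, h2⟩ ⟨h3, h4⟩
    exact ⟨by rw [mul_smul, h3, h1], fun x hx => by
      rw [mul_smul]; exact A.smul_mem h1 (h2 x hx) (h4 x hx)⟩
  inv_mem' := by
    rintro g ⟨h1, h2⟩
    refine ⟨inv_smul_eq_iff.2 h1.symm, fun x hx => ?_⟩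
    have h3 : g⁻¹ • x ≠ a := fun h => hx (by rw [inv_smul_eq_iff.1 h, h1])
    have h4 := h2 _ h3
    rw [smul_inv_smul] at h4
    rw [A.eq _ _ _ h4]
    exact A.self _ _ h3

theorem K_smul {a b c : Ω} {k : G} (hk : k ∈ A.K a) (hc : c ∈ A.Δ a b) : k • c ∈ A.Δ a b :=
  A.eq _ _ _ hc ▸ hk.2 c (A.ne _ _ _ hc)

theorem conj_K {a : Ω} {k : G} (hk : k ∈ A.K a) (g : G) : g * k * g⁻¹ ∈ A.K (g • a) := by
  refine ⟨by simp [mul_smul, hk.1], fun x hx => ?_⟩
  have := A.smul g _ _ _ (hk.2 (g⁻¹ • x) fun h => hx (inv_smul_eq_iff.1 h))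
  simpa [mul_smul] using this

theorem conj_K' {a : Ω} {k g : G} (hk : k ∈ A.K a) (hg : g • a = a) : g * k * g⁻¹ ∈ A.K a := by
  simpa [hg] using A.conj_K hk g

/-- the regular subgroup `P` of order `p ^ 2` and the generator `c` of `P ∩ K` -/
structure IsP (a : Ω) (P : Subgroup G) (c : G) : Prop where
  fix : ∀ u ∈ P, u • a = a
  card : Nat.card P = p ^ 2
  free : ∀ u ∈ P, ∀ x, x ≠ a → u • x = x → u = 1
  trans : ∀ x y, x ≠ a → y ≠ a → ∃ u ∈ P, u • x = y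
  comm : ∀ u ∈ P, ∀ v ∈ P, u * v = v * u
  mem : c ∈ P
  ord : orderOf c = p
  memK : c ∈ A.K a
  gen : ∀ x y, x ≠ a → y ∈ A.Δ a x → ∃ u ∈ zpowers c, u • x = y

theorem exists_isP (a : Ω) : ∃ P c, A.IsP a P c := by
  have := Fact.mk A.hp
  have hp := A.hp.two_le
  have : Nontrivial Ω := Finite.one_lt_card_iff_nontrivial.1 (by rw [A.card]; nlinarith)
  obtain ⟨b, hab⟩ := _root_.exists_ne a
  obtain ⟨P', hP'⟩ := Sylow.exists_subgroup_card_pow_prime (G := stabilizer G a) p (n := 2)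
    (by rw [card_stab_one A.h2 hab.symm, A.card]; exact dvd_mul_right _ _)
  set P := P'.map (stabilizer G a).subtype
  have hP : Nat.card P = p ^ 2 := by rw [card_map_of_injective (subtype_injective _), hP']
  have hfix : ∀ u ∈ P, u • a = a := fun u hu => map_subtype_le P' hu
  have hbot : ∀ x, x ≠ a → ∀ H ≤ P, Nat.card ↥(H ⊓ stabilizer G x) = 1 := fun x hx H hH => by
    have h1 := card_dvd_of_le (inf_le_left.trans hH : H ⊓ stabilizer G x ≤ P)
    rw [hP] at h1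
    exact Nat.Coprime.eq_one_of_dvd (Nat.Coprime.pow_right 2 ((A.hp.coprime_iff_not_dvd.2
      (A.not_dvd_card (H := H ⊓ stabilizer G x) hx (fun g hg => hfix g (hH hg.1))
        fun g hg => hg.2)).symm)) h1
  have hfree : ∀ u ∈ P, ∀ x, x ≠ a → u • x = x → u = 1 := fun u hu x hx h =>
    mem_bot.1 (eq_bot_of_card_eq _ (hbot x hx P le_rfl) ▸ (⟨hu, h⟩ : u ∈ P ⊓ stabilizer G x))
  have horb : ∀ x, x ≠ a → ∀ H ≤ P, ∀ Y : Set Ω, (∀ g ∈ H, g • x ∈ Y) →
      Nat.card H ≤ Y.ncard ∧ (Y.ncard ≤ Nat.card H → ∀ y ∈ Y, ∃ g ∈ H, g • x = y) := by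
    intro x hx H hH Y hY
    have h1 := card_of_orbit H x {c | ∃ g ∈ H, g • x = c} fun _ => Iff.rfl
    rw [hbot x hx H hH, mul_one] at h1
    have h2 : {c | ∃ g ∈ H, g • x = c} ⊆ Y := by rintro _ ⟨g, hg, rfl⟩; exact hY g hg
    exact ⟨h1 ▸ Set.ncard_le_ncard h2, fun h y hy =>
      (Set.eq_of_subset_of_ncard_le h2 (h1 ▸ h)).symm.subset hy⟩
  have htr : ∀ x y, x ≠ a → y ≠ a → ∃ u ∈ P, u • x = y := fun x y hx hy =>
    (horb x hx P le_rfl {a}ᶜ fun g hg h => hx (smul_left_cancel g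
      ((Set.mem_singleton_iff.1 h).trans (hfix g hg).symm))).2
      (by rw [Set.ncard_compl, Set.ncard_singleton, A.card, hP]; simp) y hy
  have hcomm : ∀ u ∈ P, ∀ v ∈ P, u * v = v * u := fun u hu v hv =>
    congrArg Subtype.val ((IsPGroup.isMulCommutative_of_card_eq_prime_sq hP).1.1 ⟨u, hu⟩ ⟨v, hv⟩)
  obtain ⟨y, hy, hyb⟩ := A.exists_ne a b hab b
  obtain ⟨c, hc, rfl⟩ := htr b y hab (A.ne _ _ _ hy)
  have hK : c ∈ A.K a := ⟨hfix c hc, fun x hx => by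
    obtain ⟨u, hu, rfl⟩ := htr b x hab hx
    have := A.smul u _ _ _ hy
    rwa [hfix u hu, ← mul_smul, hcomm u hu c hc, mul_smul] at this⟩
  have h1 := fun x hx => horb x hx (zpowers c) (zpowers_le.2 hc) (A.Δ a x)
    fun g hg => (zpowers_le.2 hK hg).2 x hx
  have ho : orderOf c = p := by
    have h2 := (h1 b hab).1
    rw [A.ncard a b hab, Nat.card_zpowers] at h2
    obtain ⟨i, hi, h⟩ := (Nat.dvd_prime_pow A.hp).1 (hP ▸ P.orderOf_dvd_natCard hc)
    interval_cases i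
    · exact absurd (by rw [orderOf_eq_one_iff.1 h, one_smul]) hyb
    · simpa using h
    · nlinarith
  exact ⟨P, c, hfix, hP, hfree, htr, hcomm, hc, ho, hK, fun x y hx hy =>
    (h1 x hx).2 (by rw [A.ncard a x hx, Nat.card_zpowers, ho]) y hy⟩

theorem K_trans {a x y : Ω} (hx : x ≠ a) (hy : y ∈ A.Δ a x) : ∃ k ∈ A.K a, k • x = y := by
  obtain ⟨P, c, h⟩ := A.exists_isP a
  obtain ⟨u, hu, e⟩ := h.gen x y hx hy
  exact ⟨u, zpowers_le.2 h.memK hu, e⟩

/-- `K` is faithful on each block -/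
theorem K_faith {a b : Ω} (hab : b ≠ a) {k : G} (hk : k ∈ A.K a) (h : ∀ z ∈ A.Δ a b, k • z = z) :
    k = 1 := by
  obtain ⟨P, c, hP⟩ := A.exists_isP a
  refine A.faith k fun δ => by_contra fun hδ => ?_
  have hδa : δ ≠ a := fun e => hδ (e ▸ hk.1)
  let N := A.K a ⊓ fixingSubgroup G (A.Δ a b)
  have hN : ∀ n, n ∈ N ↔ n ∈ A.K a ∧ ∀ z ∈ A.Δ a b, n • z = z := fun n => by
    simp [N, mem_fixingSubgroup_iff]
  have hc : ∀ u ∈ A.K a, ∀ n ∈ N, u * n * u⁻¹ ∈ N := fun u hu n hn => (hN _).2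
    ⟨mul_mem (mul_mem hu hn.1) (inv_mem hu), fun z hz => by
      rw [mul_smul, mul_smul, ((hN _).1 hn).2 _ (A.K_smul (inv_mem hu) hz), smul_inv_smul]⟩
  let S : Subgroup G :=
    { carrier := {u | u ∈ A.K a ∧ ∃ n ∈ N, n • δ = u • δ}
      one_mem' := ⟨one_mem _, 1, one_mem _, rfl⟩
      mul_mem' := by
        rintro u v ⟨hu, n, hn, e⟩ ⟨hv, m, hm, e'⟩
        exact ⟨mul_mem hu hv, _, mul_mem (hc u hu m hm) hn, by simp [mul_smul, e, e']⟩
      inv_mem' := by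
        rintro u ⟨hu, n, hn, e⟩
        refine ⟨inv_mem hu, _, hc _ (inv_mem hu) _ (inv_mem hn), ?_⟩
        simp [mul_smul, ← e] }
  obtain ⟨u, hu, e⟩ := hP.gen δ _ hδa (hk.2 δ hδa)
  have h1 : zpowers c ≤ S := zpowers_le.2 (zpowers_le.2
    (show u ∈ S from ⟨zpowers_le.2 hP.memK hu, k, (hN _).2 ⟨hk, h⟩, e.symm⟩)
    (mem_zpowers_of_prime A.hp hP.ord hu fun e' => hδ (by rw [← e, e', one_smul])))
  refine A.not_dvd_card hab (H := N) (fun g hg => hg.1.1)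
    (fun g hg => ((hN _).1 hg).2 b (A.self a b hab)) ?_
  rw [← A.ncard a δ hδa]
  refine ncard_orbit_dvd N δ _ fun y => ⟨fun hy => ?_, ?_⟩
  · obtain ⟨v, hv, rfl⟩ := hP.gen δ y hδa hy
    exact (h1 hv).2
  · rintro ⟨n, hn, rfl⟩
    exact hn.1.2 δ hδa

/-- the set of blocks -/
def Bl (a : Ω) : Set (Set Ω) := {Y | ∃ x, x ≠ a ∧ A.Δ a x = Y}

theorem ncard_Bl (a : Ω) : (A.Bl a).ncard = p := by
  have hp := A.hp.two_le
  have : Nontrivial Ω := Finite.one_lt_card_iff_nontrivial.1 (by rw [A.card]; nlinarith)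
  obtain ⟨b, hab⟩ := _root_.exists_ne a
  have h1 := card_of_orbit (stabilizer G a) (A.Δ a b) (A.Bl a) fun Y => ⟨by
    rintro ⟨x, hx, rfl⟩
    obtain ⟨g, h1, h2⟩ := A.h2 a b a x hab.symm hx.symm
    exact ⟨g, h1, by rw [A.smul_set, h1, h2]⟩, by
    rintro ⟨g, hg, rfl⟩
    exact ⟨g • b, fun h => hab (smul_left_cancel g (h.trans (mem_stabilizer_iff.1 hg).symm)),
      by rw [A.smul_set, mem_stabilizer_iff.1 hg]⟩⟩
  have h2 := card_of_orbit (stabilizer G a ⊓ stabilizer G (A.Δ a b)) b (A.Δ a b) fun y =>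
    ⟨fun hy => by
      obtain ⟨k, hk, e⟩ := A.K_trans hab hy
      exact ⟨k, ⟨hk.1, mem_stab_set.2 fun _ => A.K_smul hk⟩, e⟩, by
      rintro ⟨g, hg, rfl⟩
      exact mem_stab_set.1 hg.2 b (A.self a b hab)⟩
  rw [inf_right_comm, inf_eq_left.2 (show stabilizer G a ⊓ stabilizer G b ≤ stabilizer G (A.Δ a b)
    from fun g hg => mem_stab_set.2 fun _ => A.smul_mem' hab hg.1 hg.2), A.ncard a b hab] at h2
  rw [h2, card_stab_one A.h2 hab.symm, A.card, Nat.add_sub_cancel, ← mul_assoc, pow_two] at h1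
  exact (Nat.eq_of_mul_eq_mul_right A.hp.pos (Nat.eq_of_mul_eq_mul_right Nat.card_pos h1)).symm

/-- an element of `G_{ab}` fixing the `G_{ab}`-orbit of a point outside the block lies in `K` -/
theorem mem_K_of_fix {a b δ : Ω} (hab : b ≠ a) (hδ : δ ≠ a) (hδ' : δ ∉ A.Δ a b) {h : G}
    (ha : h • a = a) (hb : h • b = b) (hf : ∀ d : G, d • a = a → d • b = b → h • d • δ = d • δ) :
    h ∈ A.K a := by
  have hne : A.Δ a δ ≠ A.Δ a b := fun e => hδ' (e ▸ A.self a δ hδ)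
  have key : ∀ x, x ≠ a → h • A.Δ a x = A.Δ a x := by
    intro x hx
    rcases burnside_dichotomy A.hp (stabilizer G a) (A.Bl a) (A.ncard_Bl a) (by
      rintro g hg _ ⟨x, hx, rfl⟩
      exact ⟨g • x, fun h => hx (smul_left_cancel g (h.trans (mem_stabilizer_iff.1 hg).symm)),
        by rw [A.smul_set, mem_stabilizer_iff.1 hg]⟩) (by
      rintro _ ⟨x, hx, rfl⟩ _ ⟨y, hy, rfl⟩
      obtain ⟨g, h1, h2⟩ := A.h2 a x a y hx.symm hy.symm
      exact ⟨g, h1, by rw [A.smul_set, h1, h2]⟩) with h1 | h1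
    · by_cases e : A.Δ a x = A.Δ a b
      · rw [e, A.smul_set, ha, hb]
      obtain ⟨g, hg, h2, h3⟩ := h1 _ ⟨b, hab, rfl⟩ _ ⟨δ, hδ, rfl⟩ _ ⟨x, hx, rfl⟩ hne e
      have hg' := mem_stabilizer_iff.1 hg
      rw [A.smul_set, hg'] at h2 h3
      have h4 : g • b ≠ a := fun h => hab (smul_left_cancel g (h.trans hg'.symm))
      obtain ⟨k, hk, h5⟩ := A.K_trans h4 (h2 ▸ A.self a b hab)
      have h6 := hf (k * g) (by rw [mul_smul, hg', hk.1]) (by rw [mul_smul, h5])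
      have h7 : A.Δ a ((k * g) • δ) = A.Δ a x := by
        rw [← h3, mul_smul]
        exact A.eq _ _ _ (hk.2 _ fun h => hδ (smul_left_cancel g (h.trans hg'.symm)))
      rw [← h7, A.smul_set, ha, h6]
    · refine h1.1 h ha _ ⟨b, hab, rfl⟩ _ ⟨δ, hδ, rfl⟩ hne.symm (by rw [A.smul_set, ha, hb]) ?_ _
        ⟨x, hx, rfl⟩
      have := hf 1 (one_smul _ _) (one_smul _ _)
      rw [one_smul] at this
      rw [A.smul_set, ha, this]
  exact ⟨ha, fun x hx => key x hx ▸ Set.smul_mem_smul_set (A.self a x hx)⟩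

end Atk

end Cfsg.Agent.TwoTr
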