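import Mathlib
import Cfsg.Agent.Perm.Huppert
import Cfsg.Agent.Solv.CoprimeSylow
import Cfsg.Agent.PLocal.SylowIn
import Cfsg.Agent.Perm.Classes

/-!
# Linear groups of odd dimension containing elements of primitive prime order

If all odd-order elements of the non-abelian simple sections of a normal subgroup `D` are real,
then `D` centralizes all elements of order `ℓ` (a primitive prime divisor), or there is a unique
subgroup of order `ℓ`.
-/

set_option autoImplicit false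
set_option linter.unusedSectionVars false

namespace Cfsg.Agent.TwoTr.Cam

open Module Cfsg Cfsg.Agent.Perm.SemiLin Subgroup
open scoped commutatorElement

universe u

variable {p : ℕ} [Fact p.Prime] {V : Type*} [AddCommGroup V] [Module (ZMod p) V] [Finite V]
  {G : Type u} [Group G] [Finite G] {ρ : G →* End (ZMod p) V} {n ℓ : ℕ}

/-- Odd-order elements are real in every non-abelian simple group of order dividing `m`. -/
def RealSec.{v} (m : ℕ) : Prop :=
  ∀ (K : Type v) [Group K] [Finite K], IsSimpleGroup K → ¬ IsMulCommutative K → Nat.card K ∣ m →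
    ∀ y : K, Odd (orderOf y) → ∃ s : K, s * y * s⁻¹ = y⁻¹

theorem RealSec.of_dvd.{v} {m k : ℕ} (h : RealSec.{v} m) (hk : k ∣ m) : RealSec.{v} k :=
  fun K _ _ h1 h2 h3 => h K h1 h2 (h3.trans hk)

theorem simple_quot {K : Type*} [Group K] {M : Subgroup K} [M.Normal] (hM : M ≠ ⊤)
    (hmax : ∀ L : Subgroup K, L.Normal → M ≤ L → L = M ∨ L = ⊤) : IsSimpleGroup (K ⧸ M) := by
  have hs := QuotientGroup.mk'_surjective M
  have : Nontrivial (K ⧸ M) := QuotientGroup.nontrivial_iff.2 hM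
  refine ⟨fun N hN => ?_⟩
  rcases hmax (N.comap (QuotientGroup.mk' M)) (hN.comap _) (fun x hx => by
    rw [mem_comap, show QuotientGroup.mk' M x = 1 from (QuotientGroup.eq_one_iff x).2 hx]
    exact N.one_mem) with h | h
  · left
    rw [← map_comap_eq_self_of_surjective hs N, h, Subgroup.map_eq_bot_iff, QuotientGroup.ker_mk']
  · right
    rw [← map_comap_eq_self_of_surjective hs N, h, map_top_of_surjective _ hs]

section PPD

variable (hρ : Function.Injective ρ) (hn : Nat.card V = p ^ n) (hℓ : Misc.Zsig.IsPPD p n ℓ)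
include hρ hn hℓ

theorem irr_of_orderOf {ξ : G} (hξ : orderOf ξ = ℓ) (W : Submodule (ZMod p) V)
    (hW : ∀ v ∈ W, ρ ξ v ∈ W) : W = ⊥ ∨ W = ⊤ :=
  irr_of_ppd hn hℓ (pow_eq_one_of_orderOf hξ) (ne_one_of_orderOf hρ hℓ.1 hξ) W hW

/-- the centralizer of an element of order `ℓ` is semiregular -/
theorem semireg_of_comm {ξ x : G} (hξ : orderOf ξ = ℓ) (hx : x * ξ = ξ * x) {v : V} (hv : v ≠ 0)
    (hxv : ρ x v = v) : x = 1 := by
  have h1 := (irr_of_orderOf hρ hn hℓ hξ (LinearMap.ker (ρ x - 1)) fun w hw => by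
    rw [LinearMap.mem_ker, LinearMap.sub_apply, sub_eq_zero, End.one_apply] at hw ⊢
    rw [← End.mul_apply, ← map_mul, hx, map_mul, End.mul_apply, hw]).resolve_left fun h => hv (by
      have : v ∈ LinearMap.ker (ρ x - 1) := by
        rw [LinearMap.mem_ker, LinearMap.sub_apply, sub_eq_zero, End.one_apply, hxv]
      rwa [h, Submodule.mem_bot] at this)
  apply hρ
  rw [map_one]
  exact sub_eq_zero.1 (LinearMap.ker_eq_top.1 h1)

theorem isCyclic_centralizer (hn0 : 0 < n) {ξ : G} (hξ : orderOf ξ = ℓ) :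
    IsCyclic (centralizer ({ξ} : Set G)) := by
  have := nontrivial_of_card hn0 hn
  refine isCyclic_of_irr hρ (fun a ha b hb => hρ ?_) fun W hW =>
    irr_of_orderOf hρ hn hℓ hξ W (hW ξ (mem_centralizer_singleton_iff.2 rfl))
  rw [map_mul, map_mul]
  refine comm_of_irr {ρ ξ} (by rintro _ rfl _ rfl; rfl)
    (fun W hW => irr_of_orderOf hρ hn hℓ hξ W (hW _ rfl)) ?_ ?_
  · rintro _ rfl; rw [← map_mul, ← map_mul, mem_centralizer_singleton_iff.1 ha]
  · rintro _ rfl; rw [← map_mul, ← map_mul, mem_centralizer_singleton_iff.1 hb]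

theorem mem_zpowers_of_comm (hn0 : 0 < n) {ξ η : G} (hξ : orderOf ξ = ℓ) (hη : orderOf η = ℓ)
    (h : η * ξ = ξ * η) : η ∈ zpowers ξ := by
  obtain ⟨y, hy⟩ := (Subgroup.isCyclic_iff_exists_zpowers_eq_top _).1 (isCyclic_centralizer hρ hn hℓ hn0 hξ)
  exact Char.BS.mem_zpowers_of_mem_zpowers_of_dvd (x := y)
    (by rw [hy]; exact mem_centralizer_singleton_iff.2 h)
    (by rw [hy]; exact mem_centralizer_singleton_iff.2 rfl) (by rw [hξ, hη])

theorem mem_zpowers_of_conj (hn0 : 0 < n) {ξ η : G} (hξ : orderOf ξ = ℓ) (hη : orderOf η = ℓ)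
    (h : η * ξ * η⁻¹ ∈ zpowers ξ) : η ∈ zpowers ξ := by
  have := Fact.mk hℓ.1
  have hP : ∀ x : G, orderOf x = ℓ → IsPGroup ℓ (zpowers x) := fun x hx =>
    IsPGroup.of_card (n := 1) (by rw [Nat.card_zpowers, hx, pow_one])
  have hN : zpowers η ≤ normalizer (zpowers ξ : Set G) := by
    rw [zpowers_le]
    refine mem_normalizer_fintype ?_
    rintro _ ⟨k, rfl⟩
    simp only
    rw [← conj_zpow]
    exact zpow_mem h k
  exact mem_zpowers_of_comm hρ hn hℓ hn0 hξ hη (comm_of_ppd hρ hn hℓ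
    ((hP ξ hξ).to_sup_of_normal_left' (hP η hη) hN) (mem_sup_right (mem_zpowers η))
    (mem_sup_left (mem_zpowers ξ)))

/-- in odd dimension the elements of order `ℓ` are not real -/
theorem not_real (hp2 : p ≠ 2) (hodd : Odd n) (h1 : 1 < n) {ξ s : G} (hξ : orderOf ξ = ℓ) :
    s * ξ * s⁻¹ ≠ ξ⁻¹ := by
  intro h
  have hp : p.Prime := Fact.out
  have hlt := hℓ.lt (by omega) hp.one_lt
  have hℓodd : Odd ℓ := hℓ.1.odd_of_ne_two (by omega)
  have hu : IsUnit (LinearMap.det (ρ ξ - 1)) := LinearMap.isUnit_det _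
    ((LinearMap.isUnit_iff_ker_eq_bot _).2 (ker_eq_bot_of_ppd hn hℓ (pow_eq_one_of_orderOf hξ)
      (ne_one_of_orderOf hρ hℓ.1 hξ)))
  have e1 : ρ ξ⁻¹ - 1 = ρ s * (ρ ξ - 1) * ρ s⁻¹ := by
    rw [mul_sub, sub_mul, mul_one, ← map_mul, ← map_mul, ← map_mul, h, mul_inv_cancel, map_one]
  have e2 : ρ ξ⁻¹ - 1 = (-1 : ZMod p) • (ρ ξ⁻¹ * (ρ ξ - 1)) := by
    rw [mul_sub, ← map_mul, inv_mul_cancel, map_one, mul_one, neg_smul, one_smul, neg_sub]
  have e3 : LinearMap.det (ρ s) * LinearMap.det (ρ s⁻¹) = 1 := by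
    rw [← map_mul, ← map_mul, mul_inv_cancel, map_one, map_one]
  have e4 := congrArg LinearMap.det (e1.symm.trans e2)
  rw [LinearMap.det_smul, map_mul, map_mul, map_mul, finrank_eq_of_card hn, hodd.neg_one_pow,
    mul_right_comm, e3, ← mul_assoc] at e4
  have e5 := hu.mul_right_cancel e4
  have e6 : LinearMap.det (ρ ξ⁻¹) ^ ℓ = 1 := by
    rw [← map_pow, pow_eq_one_of_orderOf (by rw [orderOf_inv, hξ]), map_one]
  have e7 : LinearMap.det (ρ ξ⁻¹) = -1 := by linear_combination e5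
  rw [e7, hℓodd.neg_one_pow] at e6
  have e8 : ((2 : ℕ) : ZMod p) = 0 := by push_cast; linear_combination -e6
  rw [ZMod.natCast_eq_zero_iff] at e8
  exact hp2 ((Nat.prime_dvd_prime_iff_eq hp Nat.prime_two).1 e8)

/-- a normal `ℓ'`-subgroup is centralized by the elements of order `ℓ` -/
theorem cent_of_coprime (hodd : Odd n) (h1 : 1 < n) {B : Subgroup G} [B.Normal]
    (hB : ¬ ℓ ∣ Nat.card B) {ξ : G} (hξ : orderOf ξ = ℓ) {x : G} (hx : x ∈ B) :
    x * ξ = ξ * x := by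
  have hp : p.Prime := Fact.out
  have := nontrivial_of_card (by omega) hn
  have hcop : (Nat.card (zpowers ξ)).Coprime (Nat.card B) := by
    rw [Nat.card_zpowers, hξ]; exact (Nat.Prime.coprime_iff_not_dvd hℓ.1).2 hB
  have hN : zpowers ξ ≤ normalizer (B : Set G) := by rw [normalizer_eq_top]; exact le_top
  have hpB : ¬ p ∣ Nat.card B := by
    intro hd
    obtain ⟨P, hP⟩ := Solv.exists_invariant_sylow (zpowers ξ) B hN hcop (Or.inl inferInstance) p
    have hPp : IsPGroup p ((P : Subgroup B).map B.subtype) := P.isPGroup'.map _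
    obtain ⟨v, hv0, hv⟩ := exists_fixed_of_isPGroup ρ hPp
    have hξN := hP (mem_zpowers ξ)
    have h2 := (irr_of_orderOf hρ hn hℓ hξ (FT.Rep.fix ρ ((P : Subgroup B).map B.subtype))
      fun w hw b hb => by
        rw [← FT.Rep.apply_mul, show b * ξ = ξ * (ξ⁻¹ * b * ξ⁻¹⁻¹) by group, FT.Rep.apply_mul,
          hw _ ((mem_normalizer_iff.1 (inv_mem hξN) b).1 hb)]).resolve_left fun h => hv0 (by
        have : v ∈ FT.Rep.fix ρ ((P : Subgroup B).map B.subtype) := hv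
        rwa [h, Submodule.mem_bot] at this)
    rw [FT.Rep.fix_eq_top_iff_le_ker, (MonoidHom.ker_eq_bot_iff _).2 hρ, le_bot_iff,
      map_eq_bot_iff_of_injective _ B.subtype_injective] at h2
    exact P.ne_bot_of_dvd_card hd h2
  have h2 := FT.Rep.rep3_4 (bc ρ) (K := B) (X := zpowers ξ)
    (by rw [Nat.card_zpowers, hξ]; exact hℓ.1) hcop hN (natCast_ne_zero hpB)
    (natCast_ne_zero (by
      rw [Nat.card_zpowers, hξ]
      exact fun h => ppd_ne (by omega) hℓ ((Nat.prime_dvd_prime_iff_eq hp hℓ.1).1 h).symm))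
    (fun Q _ _ h3 => by
      rw [Nat.card_zpowers, hξ] at h3
      obtain ⟨m, hm⟩ := h3
      have h4 := hℓ.dvd_sub_one (by omega) hp.one_lt
      rw [hm, Nat.add_sub_cancel] at h4
      have h5 := (Nat.Coprime.pow_right m hodd.coprime_two_right).eq_one_of_dvd h4
      omega)
    (fix_bc_eq_bot (ker_eq_bot_of_ppd hn hℓ (pow_eq_one_of_orderOf hξ)
      (ne_one_of_orderOf hρ hℓ.1 hξ)) (mem_zpowers ξ))
  rw [FT.Rep.fix_eq_top_iff_le_ker, (MonoidHom.ker_eq_bot_iff _).2 (bc_injective hρ), le_bot_iff,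
    commutator_eq_bot_iff_le_centralizer] at h2
  exact (h2 hx ξ (mem_zpowers ξ)).symm

/-- no section has a real element of order `ℓ` -/
theorem not_real_sec (hp2 : p ≠ 2) (hodd : Odd n) (h1 : 1 < n) {B : Subgroup G} {K : Type*}
    [Group K] (π : B →* K) (hπ : Function.Surjective π) {y s : K} (hy : orderOf y = ℓ) :
    s * y * s⁻¹ ≠ y⁻¹ := by
  intro h
  have := Fact.mk hℓ.1
  have := nontrivial_of_card (by omega) hn
  obtain ⟨y₁, rfl⟩ := hπ y
  obtain ⟨s₁, rfl⟩ := hπ s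
  obtain ⟨m, e, hm, hme⟩ := Perm.exists_pow_coprime_orderOf_eq_prime_pow ℓ hℓ.1 y₁
    (isOfFinOrder_of_finite _)
  let L : Subgroup B := (zpowers (π y₁)).comap π
  have hL : ∀ t : B, π t * π y₁ * (π t)⁻¹ = (π y₁)⁻¹ → t ∈ normalizer (L : Set B) := by
    intro t ht
    refine mem_normalizer_fintype fun z hz => ?_
    obtain ⟨k, hk⟩ := hz
    simp only at hk
    change π _ ∈ zpowers (π y₁)
    rw [map_mul, map_mul, map_inv, ← hk, ← conj_zpow, ht]
    exact zpow_mem (inv_mem (mem_zpowers _)) k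
  have hyL : y₁ ^ m ∈ L := by
    change π _ ∈ zpowers (π y₁)
    rw [map_pow]; exact pow_mem (mem_zpowers _) m
  obtain ⟨X, hX, hyX⟩ := PLocal.exists_isSylowIn_ge (p := ℓ) (R := zpowers (y₁ ^ m)) (H := L)
    (by
      rintro ⟨_, k, rfl⟩
      exact ⟨e, Subtype.ext (by
        simp only [SubgroupClass.coe_pow, OneMemClass.coe_one]
        rw [← zpow_natCast, ← zpow_mul, mul_comm, zpow_mul, zpow_natCast, hme, one_zpow])⟩)
    (zpowers_le.2 hyL)
  obtain ⟨k, hkL, hk⟩ := Solv.sylow_frattini_ambient hX.toSylow (hL s₁ h)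
  rw [hX.map_toSylow] at hk
  obtain ⟨j, hj⟩ := hkL
  simp only at hj
  have ht : π (k⁻¹ * s₁) * π y₁ * (π (k⁻¹ * s₁))⁻¹ = (π y₁)⁻¹ := by
    rw [map_mul, map_inv, ← hj, mul_inv_rev, inv_inv,
      show (π y₁ ^ j)⁻¹ * π s₁ * π y₁ * ((π s₁)⁻¹ * π y₁ ^ j) =
        (π y₁ ^ j)⁻¹ * (π s₁ * π y₁ * (π s₁)⁻¹) * π y₁ ^ j by group, h]
    group
  set t := k⁻¹ * s₁
  have hym : π (y₁ ^ m) ≠ 1 := by
    rw [map_pow, Ne, ← orderOf_dvd_iff_pow_eq_one, hy]; exact hm
  have hXp : IsPGroup ℓ (X.map B.subtype) := hX.isPGroup.map _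
  have hX0 : Nontrivial X := (nontrivial_iff_ne_bot _).2 fun h0 => hym (by
    have := hyX (mem_zpowers _)
    rw [h0, mem_bot] at this
    rw [this, map_one])
  obtain ⟨a, ha, ha'⟩ := (hX.isPGroup.nontrivial_iff_card).1 hX0
  obtain ⟨ξ, hξ⟩ := exists_prime_orderOf_dvd_card' (G := X) ℓ (ha' ▸ dvd_pow_self _ ha.ne')
  have hξ' : orderOf ((ξ : B) : G) = ℓ := by rw [orderOf_coe, orderOf_coe, hξ]
  have hcyc : IsCyclic (X.map B.subtype) := isCyclic_of_irr hρ
    (fun a ha b hb => comm_of_ppd hρ hn hℓ hXp ha hb) fun W hW =>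
      irr_of_orderOf hρ hn hℓ hξ' W (hW _ ⟨ξ, ξ.2, rfl⟩)
  obtain ⟨x, hx⟩ := (Subgroup.isCyclic_iff_exists_zpowers_eq_top _).1 hcyc
  obtain ⟨x, hxX, rfl⟩ : x ∈ X.map B.subtype := hx ▸ mem_zpowers x
  have hmem : ∀ z ∈ X, ∃ i : ℤ, x ^ i = z := fun z hz => by
    have : (z : G) ∈ zpowers (B.subtype x) := hx ▸ ⟨z, hz, rfl⟩
    obtain ⟨i, hi⟩ := this
    exact ⟨i, Subtype.ext hi⟩
  obtain ⟨i, hi⟩ := hmem _ ((mem_normalizer_iff.1 hk x).1 hxX)
  obtain ⟨c, hc⟩ := hX.le hxX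
  simp only at hc
  have hx1 : π x ≠ 1 := fun h0 => hym (by
    obtain ⟨i, hi⟩ := hmem _ (hyX (mem_zpowers _))
    rw [← hi, map_zpow, h0, one_zpow])
  have hxo : orderOf (π x) = ℓ := by
    have h2 : orderOf (π x) ∣ ℓ := hy ▸ orderOf_dvd_of_mem_zpowers ⟨c, hc⟩
    exact ((Nat.dvd_prime hℓ.1).1 h2).resolve_left fun h0 => hx1 (orderOf_eq_one_iff.1 h0)
  have h3 : (ℓ : ℤ) ∣ i + 1 := by
    rw [← hxo, orderOf_dvd_iff_zpow_eq_one, zpow_add_one, ← map_zpow, hi, map_mul, map_mul,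
      map_inv, ← hc, ← conj_zpow, ht, inv_zpow, inv_mul_cancel]
  obtain ⟨r, hr⟩ := hmem _ ξ.2
  refine not_real hρ hn hℓ hp2 hodd h1 (s := (t : G)) hξ' ?_
  have h4 : t * ξ * t⁻¹ = (ξ : B)⁻¹ := by
    rw [← hr, ← conj_zpow, ← hi, ← zpow_mul, mul_comm, zpow_mul, hr, eq_inv_iff_mul_eq_one,
      ← zpow_add_one, ← orderOf_dvd_iff_zpow_eq_one, orderOf_coe, hξ]
    exact h3
  exact congrArg Subtype.val h4

theorem cent_or_uniq (hp2 : p ≠ 2) (hodd : Odd n) (h1 : 1 < n) (D : Subgroup G) [hD : D.Normal]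
    (hS : RealSec.{u} (Nat.card D)) :
    (∀ ξ : G, orderOf ξ = ℓ → ∀ x ∈ D, x * ξ = ξ * x) ∨
      ∃ ξ : G, orderOf ξ = ℓ ∧ ∀ η : G, orderOf η = ℓ → η ∈ zpowers ξ := by
  have := Fact.mk hℓ.1
  have hp : p.Prime := Fact.out
  have hn0 : 0 < n := by omega
  rw [or_iff_not_imp_right]
  intro hnu
  induction D using WellFoundedLT.induction generalizing hD with
  | ind B ih =>
  by_cases hB : ℓ ∣ Nat.card B
  swap
  · exact fun ξ hξ x hx => cent_of_coprime hρ hn hℓ hodd h1 hB hξ hx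
  exfalso
  obtain ⟨ξ, hξ⟩ := exists_prime_orderOf_dvd_card' (G := B) ℓ hB
  have hξ' : orderOf (ξ : G) = ℓ := by rw [orderOf_coe, hξ]
  have hconj : ∀ g x : G, orderOf (g * x * g⁻¹) = orderOf x := fun g x =>
    (MulAut.conj g).orderOf_eq x
  by_cases hc : ⁅B, B⁆ = B
  · have hB0 : (⊥ : Subgroup B) ≠ ⊤ := fun h => by
      have : ξ ∈ (⊥ : Subgroup B) := h ▸ mem_top ξ
      rw [mem_bot.1 this, orderOf_one] at hξ
      exact hℓ.1.one_lt.ne hξ
    obtain ⟨N, hNn, hN, -, hmax⟩ := Grp.exists_le_maxNormal (⊥ : Subgroup B) hB0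
    by_cases hd : ℓ ∣ Nat.card (B ⧸ N)
    · obtain ⟨y, hy⟩ := exists_prime_orderOf_dvd_card' ℓ hd
      have hlt := hℓ.lt hn0 hp.one_lt
      obtain ⟨s, hs⟩ := hS (B ⧸ N) (simple_quot hN hmax) (fun hcomm => hN (by
        rw [eq_top_iff]
        intro x _
        have hx : (x : G) ∈ ⁅B, B⁆ := hc.symm ▸ x.2
        rw [← map_subtype_commutator] at hx
        obtain ⟨z, hz, hzx⟩ := hx
        rw [← Subtype.ext hzx]
        exact (Normal.quotient_commutative_iff_commutator_le.1 hcomm) hz))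
        (card_quotient_dvd_card N) y (hy ▸ hℓ.1.odd_of_ne_two (by omega))
      exact not_real_sec hρ hn hℓ hp2 hodd h1 (QuotientGroup.mk' N)
        (QuotientGroup.mk'_surjective N) hy hs
    · let Y := normalClosure {η : G | η ∈ B ∧ orderOf η = ℓ}
      have hYN : Y ≤ N.map B.subtype := by
        refine (closure_le _).2 fun x hx => ?_
        obtain ⟨η, ⟨h2, h3⟩, h4⟩ := Group.mem_conjugatesOfSet_iff.1 hx
        obtain ⟨g, rfl⟩ := isConj_iff.1 h4
        refine ⟨⟨_, hD.conj_mem η h2 g⟩, ?_, rfl⟩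
        rw [SetLike.mem_coe, ← QuotientGroup.eq_one_iff, ← orderOf_eq_one_iff]
        have h5 : orderOf ((⟨_, hD.conj_mem η h2 g⟩ : B) : B ⧸ N) ∣ ℓ := by
          refine (orderOf_map_dvd (QuotientGroup.mk' N) _).trans ?_
          rw [orderOf_mk, hconj, h3]
        exact ((Nat.dvd_prime hℓ.1).1 h5).resolve_right fun h0 => hd (h0 ▸ orderOf_dvd_natCard _)
      have hlt : Y < B := lt_of_le_of_lt hYN (lt_of_le_of_ne (map_subtype_le N) fun h => hN (by
        apply map_injective B.subtype_injective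
        rw [h, ← MonoidHom.range_eq_map, range_subtype]))
      have h2 := ih Y hlt (hS.of_dvd (card_dvd_of_le hlt.le))
      exact hnu ⟨ξ, hξ', fun η hη => mem_zpowers_of_comm hρ hn hℓ hn0 hξ' hη
        (h2 η hη ξ (subset_normalClosure ⟨ξ.2, hξ'⟩)).symm⟩
  · have hlt : ⁅B, B⁆ < B := lt_of_le_of_ne (commutator_le_left B B) hc
    have h2 := ih _ hlt (hS.of_dvd (card_dvd_of_le hlt.le))
    have h3 : ∀ η ∈ B, orderOf η = ℓ → η ∈ zpowers (ξ : G) := fun η hηB hη =>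
      mem_zpowers_of_conj hρ hn hℓ hn0 hξ' hη (mem_zpowers_of_comm hρ hn hℓ hn0 hξ'
        (by rw [hconj, hξ']) (by
          have h4 := h2 ξ hξ' _ (commutator_mem_commutator hηB ξ.2)
          rw [commutatorElement_def] at h4
          calc η * ξ * η⁻¹ * ξ = η * ξ * η⁻¹ * (ξ : G)⁻¹ * ξ * ξ := by group
            _ = ξ * (η * ξ * η⁻¹) := by rw [h4]; group))
    exact hnu ⟨ξ, hξ', fun η hη => mem_zpowers_of_conj hρ hn hℓ hn0 hξ' hη
      (h3 _ (hD.conj_mem _ ξ.2 η) (by rw [hconj, hξ']))⟩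

end PPD

end Cfsg.Agent.TwoTr.Cam
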