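import Mathlib

/-! Linear algebra for S2201: an orbit of a group of homologies with at least four points is not
doubly transitive under linear maps. -/

set_option autoImplicit false

namespace Cfsg.Agent.TwoTr.TI

open Polynomial in
/-- a Möbius map preserving the `e`-th roots of unity is monomial -/
theorem s2_poly {F : Type*} [Field F] (S : Finset F) {n : ℕ} (hS : S.card = n + 3)
    (h0 : (0 : F) ∉ S) (h1 : ((n + 3 : ℕ) : F) ≠ 0) (h2 : ((n + 2 : ℕ) : F) ≠ 0)
    (hs : ∀ s ∈ S, s ^ (n + 3) = 1) {a b c d : F} (hd : a * d ≠ b * c)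
    (h : ∀ s ∈ S, (a * s + b) ^ (n + 3) = (c * s + d) ^ (n + 3)) : a * b = 0 ∧ c * d = 0 := by
  classical
  have hQ : (C a * X + C b) ^ (n + 3) - (C c * X + C d) ^ (n + 3)
      + C (b ^ (n + 3) - d ^ (n + 3)) * (X ^ (n + 3) - 1) = 0 := by
    refine eq_zero_of_natDegree_lt_card_of_eval_eq_zero' _ (insert 0 S) (fun s hs' => ?_) ?_
    · rcases Finset.mem_insert.1 hs' with rfl | hs'
      · simp
      · simp [h s hs', hs s hs']
    · rw [Finset.card_insert_of_notMem h0, hS, Nat.lt_succ_iff]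
      have k : ∀ a b : F, ((C a * X + C b) ^ (n + 3)).natDegree ≤ n + 3 := fun a b =>
        natDegree_pow_le.trans (by
          have := natDegree_linear_le (a := a) (b := b)
          nlinarith)
      refine (natDegree_add_le _ _).trans (max_le ((natDegree_sub_le _ _).trans
        (max_le (k _ _) (k _ _))) ((natDegree_C_mul_le _ _).trans ((natDegree_sub_le _ _).trans
          (max_le (natDegree_X_pow_le _) (by simp)))))
  have e1 := congrArg (fun p => (derivative p).eval 0) hQ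
  have e2 := congrArg (fun p => (derivative (derivative p)).eval 0) hQ
  simp [derivative_pow] at e1 e2
  push_cast at h1 h2
  have f1 : a * b ^ (n + 2) = c * d ^ (n + 2) :=
    mul_left_cancel₀ h1 (by linear_combination e1)
  have f2 : a ^ 2 * b ^ (n + 1) = c ^ 2 * d ^ (n + 1) :=
    mul_left_cancel₀ (mul_ne_zero h1 h2) (by linear_combination e2)
  have f3 : a * b ^ (n + 1) * (a * d - b * c) = 0 := by linear_combination d * f2 - c * f1
  have f4 : c * d ^ (n + 1) * (a * d - b * c) = 0 := by linear_combination b * f2 - a * f1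
  have hd' := sub_ne_zero.2 hd
  constructor
  · rcases mul_eq_zero.1 ((mul_eq_zero.1 f3).resolve_right hd') with e | e
    · simp [e]
    · simp [(pow_eq_zero_iff n.succ_ne_zero).1 e]
  · rcases mul_eq_zero.1 ((mul_eq_zero.1 f4).resolve_right hd') with e | e
    · simp [e]
    · simp [(pow_eq_zero_iff n.succ_ne_zero).1 e]

theorem s2_lin {r : ℕ} [Fact r.Prime] {V : Type*} [AddCommGroup V] [Module (ZMod r) V]
    {I : Type*} [Finite I] (B : Submodule (ZMod r) V) (k : I → V) (inj : Function.Injective k)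
    (x : I) (hb : ∀ u, k u - k x ∈ B) (hx : k x ∉ B)
    (hΓ : ∀ u, ∃ g : V →ₗ[ZMod r] V, Function.Injective g ∧ (∀ b ∈ B, g b = b) ∧
      (∀ w, ∃ w', ∃ c : ZMod r, g (k w) = c • k w') ∧ ∃ c : ZMod r, g (k x) = c • k u)
    (htr : ∀ c ∈ B, (∀ w, ∃ w', k w' = k w + c) → c = 0)
    (h2 : ∀ y z, y ≠ x → z ≠ x → ∃ g : V →ₗ[ZMod r] V, Function.Injective g ∧
      (∀ w, ∃ w', ∃ c : ZMod r, g (k w) = c • k w') ∧ (∃ c : ZMod r, g (k x) = c • k x) ∧
      ∃ c : ZMod r, g (k y) = c • k z)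
    {y z z' : I} (hy : y ≠ x) (hz : z ≠ x) (hz' : z' ≠ x) (hzy : z ≠ y) (hzy' : z' ≠ y)
    (hzz : z ≠ z') : False := by
  classical
  have := Fintype.ofFinite I
  have ind : ∀ c : ZMod r, c • k x ∈ B → c = 0 := fun c hc => by
    by_contra h
    exact hx ((B.smul_mem_iff h).1 hc)
  have k0 : ∀ w, k w ≠ 0 := fun w e => hx (by simpa [e] using hb w)
  have nz : ∀ (g : V →ₗ[ZMod r] V) (c : ZMod r) w v, Function.Injective g → g (k w) = c • v →
      c ≠ 0 := fun g c w v hg e c0 => k0 w (hg (by rw [e, c0, zero_smul, map_zero]))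
  have s1 : ∀ u, ∃ l : ZMod r, l ≠ 0 ∧ ∀ w, ∃ w', k w' - k x = l • (k w - k x) + (k u - k x) := by
    intro u
    obtain ⟨g, hg, hB, hw, ζ, e⟩ := hΓ u
    have h0 := nz g ζ x _ hg e
    refine ⟨ζ⁻¹, inv_ne_zero h0, fun w => ?_⟩
    obtain ⟨w', c, e'⟩ := hw w
    have e2 := hB _ (hb w)
    rw [map_sub, e, e'] at e2
    have : c - ζ = 0 := ind _ (by
      have := B.add_mem (B.sub_mem (hb w) (B.smul_mem c (hb w'))) (B.smul_mem ζ (hb u))
      convert this using 1
      linear_combination (norm := module) e2)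
    obtain rfl := sub_eq_zero.1 this
    refine ⟨w', ?_⟩
    rw [← e2, ← smul_sub, inv_smul_smul₀ h0]
    abel
  choose l hl σ hσ using s1
  have σi : ∀ u, Function.Bijective (σ u) := fun u => Finite.injective_iff_bijective.1
    fun w w' e => inj (sub_left_injective (smul_right_injective V (hl u)
      (add_right_cancel ((hσ u w).symm.trans (e ▸ hσ u w')))))
  have s2 : ∀ u v, (1 - l v) • (k u - k x) = (1 - l u) • (k v - k x) := fun u v => by
    have := htr (l u • (k v - k x) + (k u - k x) - (l v • (k u - k x) + (k v - k x)))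
      (B.sub_mem (B.add_mem (B.smul_mem _ (hb _)) (hb _)) (B.add_mem (B.smul_mem _ (hb _)) (hb _)))
      fun w => by
        obtain ⟨w, rfl⟩ := (σi v).2 w
        obtain ⟨w, rfl⟩ := (σi u).2 w
        refine ⟨σ u (σ v w), ?_⟩
        linear_combination (norm := module) hσ u (σ v w) + l u • hσ v w - hσ v (σ u w)
          - l v • hσ u w
    linear_combination (norm := module) this
  have ly : 1 - l y ≠ 0 := fun e => hy (inj (sub_eq_zero.1 (htr _ (hb y) fun w => ⟨σ y w, by
    have := hσ y w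
    rw [← sub_eq_zero.1 e, one_smul] at this
    linear_combination (norm := module) this⟩)))
  obtain ⟨μ, hμ⟩ : ∃ μ, μ * (1 - l y) = 1 := ⟨_, inv_mul_cancel₀ ly⟩
  have μ0 : μ ≠ 0 := left_ne_zero_of_mul_eq_one hμ
  obtain ⟨d, hd⟩ : ∃ d, d = μ • (k y - k x) := ⟨_, rfl⟩
  have dB : d ∈ B := hd ▸ B.smul_mem _ (hb y)
  have d0 : d ≠ 0 := hd ▸ smul_ne_zero μ0 (sub_ne_zero.2 (inj.ne hy))
  have kd : ∀ u, k u = k x + (1 - l u) • d := fun u => by
    rw [hd, smul_comm, ← s2, smul_smul, hμ, one_smul, add_sub_cancel]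
  have cd : ∀ c c' : ZMod r, c • d = c' • d → c = c' := fun c c' e => smul_left_injective _ d0 e
  have lx : l x = 1 := (sub_eq_zero.1 (cd _ 0 (by simpa using (kd x).symm))).symm
  have li : Function.Injective l := fun u v e => inj (by rw [kd u, kd v, e])
  have lm : ∀ u w, l (σ u w) = l u * l w := fun u w => by
    have := hσ u w
    rw [kd (σ u w), kd w, kd u] at this
    refine neg_injective (cd _ _ ?_)
    linear_combination (norm := module) this
  have lp : ∀ u, l u ^ Fintype.card I = 1 := fun u => by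
    have := (σi u).prod_comp l
    simp only [lm, Finset.prod_mul_distrib, Finset.prod_const, Finset.card_univ] at this
    exact mul_right_cancel₀ (Finset.prod_ne_zero_iff.2 fun w _ => hl w)
      (this.trans (one_mul _).symm)
  have cS : (Finset.univ.image l).card = Fintype.card I := by
    rw [Finset.card_image_of_injective _ li, Finset.card_univ]
  have S0 : (0 : ZMod r) ∉ Finset.univ.image l := fun h =>
    let ⟨w, _, e⟩ := Finset.mem_image.1 h; hl w e
  have er : Fintype.card I < r := by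
    have := Finset.card_le_univ (insert 0 (Finset.univ.image l))
    rwa [Finset.card_insert_of_notMem S0, cS, ZMod.card] at this
  obtain ⟨n, hn⟩ : ∃ n, Fintype.card I = n + 3 := by
    have := Finset.card_le_univ ({x, y, z} : Finset I)
    rw [Finset.card_eq_three.2 ⟨x, y, z, hy.symm, hz.symm, hzy.symm, rfl⟩] at this
    exact ⟨Fintype.card I - 3, by omega⟩
  have cast : ∀ m : ℕ, 0 < m → m < r → (m : ZMod r) ≠ 0 := fun m h1 h2 e =>
    absurd (Nat.le_of_dvd h1 ((ZMod.natCast_eq_zero_iff _ _).1 e)) (by omega)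
  have key : ∀ z, z ≠ x → z ≠ y → l z * l y = 1 := fun z hz hzy => by
    obtain ⟨g, hg, hw, ⟨p, ep⟩, q, eq⟩ := h2 y z hy hz
    have p0 := nz g p _ _ hg ep
    have q0 := nz g q _ _ hg eq
    have lz : 1 - l z ≠ 0 := fun e => hz (li (by rw [lx, ← sub_eq_zero.1 e]))
    have gd : g d = (μ * (q - p)) • k x + (μ * q * (1 - l z)) • d := by
      conv_lhs => rw [hd, map_smul, map_sub, ep, eq, kd z]
      module
    have hdet : (μ * (p - q) + μ * q * (1 - l z)) * (p + μ * (q - p)) ≠
        (p + μ * (q - p) - μ * q * (1 - l z)) * (μ * (p - q)) := fun e =>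
      mul_ne_zero (mul_ne_zero (mul_ne_zero μ0 q0) lz) p0 (by linear_combination e)
    obtain ⟨h1, h3⟩ := s2_poly _ (cS.trans hn) S0 (cast _ (by omega) (by omega))
      (cast _ (by omega) (by omega)) (fun s hs => by
        obtain ⟨w, -, rfl⟩ := Finset.mem_image.1 hs
        rw [← hn, lp]) hdet fun s hs => by
        obtain ⟨w, -, rfl⟩ := Finset.mem_image.1 hs
        obtain ⟨w', c, e⟩ := hw w
        rw [kd w, kd w', map_add, map_smul, ep, gd] at e
        have e1 : p + (1 - l w) * (μ * (q - p)) - c = 0 := ind _ (by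
          have := B.smul_mem (c * (1 - l w') - (1 - l w) * (μ * q * (1 - l z))) dB
          convert this using 1
          linear_combination (norm := module) e)
        obtain rfl := sub_eq_zero.1 e1
        have e2 := cd ((1 - l w) * (μ * q * (1 - l z)))
          ((p + (1 - l w) * (μ * (q - p))) * (1 - l w')) (by linear_combination (norm := module) e)
        have e3 : (μ * (p - q) + μ * q * (1 - l z)) * l w + (p + μ * (q - p) - μ * q * (1 - l z)) =
            (μ * (p - q) * l w + (p + μ * (q - p))) * l w' := by linear_combination -e2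
        rw [e3, mul_pow, ← hn, lp, mul_one]
    rcases mul_eq_zero.1 h3 with e | e
    · obtain rfl := sub_eq_zero.1 ((mul_eq_zero.1 e).resolve_left μ0)
      rcases mul_eq_zero.1 h1 with e' | e'
      · exact absurd (by rw [e', e]; simp) hdet
      · exact absurd (li (mul_left_cancel₀ (mul_ne_zero μ0 p0)
          (by linear_combination e' + p * hμ))) hzy
    · rcases mul_eq_zero.1 h1 with e' | e'
      · have e1 : p = q * l z := mul_left_cancel₀ μ0 (by linear_combination e')
        have e2 : q = p * l y := by linear_combination (1 - l y) * e + (p - q) * hμ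
        exact mul_left_cancel₀ q0 (by linear_combination -e2 - l y * e1)
      · exact absurd (by rw [e', e]; simp) hdet
  exact hzz (li (mul_right_cancel₀ (hl y) ((key z hz hzy).trans (key z' hz' hzy').symm)))

open Subgroup in
theorem s2_comm {A : Type*} [CommGroup A] {r : ℕ} (hr : r.Prime) (B : Subgroup A)
    (hp : ∀ a : A, a ^ r = 1) {I : Type*} [Finite I] (k : I → A) (inj : Function.Injective k)
    (x : I) (hb : ∀ u, k u * (k x)⁻¹ ∈ B) (hx : k x ∉ B)
    (hΓ : ∀ u, ∃ g : A →* A, Function.Injective g ∧ (∀ b ∈ B, g b = b) ∧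
      (∀ w, ∃ w', g (k w) ∈ zpowers (k w')) ∧ g (k x) ∈ zpowers (k u))
    (htr : ∀ c ∈ B, (∀ w, ∃ w', k w' = k w * c) → c = 1)
    (h2 : ∀ y z, y ≠ x → z ≠ x → ∃ g : A →* A, Function.Injective g ∧
      (∀ w, ∃ w', g (k w) ∈ zpowers (k w')) ∧ g (k x) ∈ zpowers (k x) ∧
      g (k y) ∈ zpowers (k z))
    {y z z' : I} (hy : y ≠ x) (hz : z ≠ x) (hz' : z' ≠ x) (hzy : z ≠ y) (hzy' : z' ≠ y)
    (hzz : z ≠ z') : False := by
  let : Module (ZMod r) (Additive A) := AddCommGroup.zmodModule fun a => hp (Additive.toMul a)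
  have φz : ∀ (g : A →* A) w w', g (k w) ∈ zpowers (k w') → ∃ c : ZMod r,
      Additive.ofMul (g (k w)) = c • Additive.ofMul (k w') := by
    rintro g w w' ⟨i, e⟩
    exact ⟨i, by rw [Int.cast_smul_eq_zsmul]; exact e.symm⟩
  have := Fact.mk hr
  refine s2_lin (AddSubgroup.toZModSubmodule r (toAddSubgroup B)) (fun u => Additive.ofMul (k u))
    inj x (fun u => ?_) hx (fun u => ?_) htr (fun y z hy hz => ?_) hy hz hz' hzy hzy' hzz
  · rw [sub_eq_add_neg]; exact hb u
  · obtain ⟨g, h1, h2, h3, h4⟩ := hΓ u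
    exact ⟨AddMonoidHom.toZModLinearMap r (MonoidHom.toAdditive g), h1, h2, fun w => (h3 w).imp fun w' => φz g w w', φz g _ _ h4⟩
  · obtain ⟨g, h1, h3, h4, h5⟩ := h2 y z hy hz
    exact ⟨AddMonoidHom.toZModLinearMap r (MonoidHom.toAdditive g), h1, fun w => (h3 w).imp fun w' => φz g w w', φz g _ _ h4, φz g _ _ h5⟩

open Subgroup in
open scoped IsMulCommutative in
theorem s2_grp {G : Type*} [Group G] {r : ℕ} (hr : r.Prime) {A B : Subgroup G}
    (hA : ∀ a ∈ A, ∀ b ∈ A, a * b = b * a) (hp : ∀ a ∈ A, a ^ r = 1)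
    {I : Type*} [Finite I] (k : I → G) (hk : ∀ u, k u ∈ A) (inj : Function.Injective k)
    (x : I) (hb : ∀ u, k u * (k x)⁻¹ ∈ B) (hx : k x ∉ B)
    (hΓ : ∀ u, ∃ g : G, (∀ a ∈ A, g * a * g⁻¹ ∈ A) ∧ (∀ b ∈ B, g * b * g⁻¹ = b) ∧
      (∀ w, ∃ w', g * k w * g⁻¹ ∈ zpowers (k w')) ∧ g * k x * g⁻¹ ∈ zpowers (k u))
    (htr : ∀ c ∈ B, (∀ w, ∃ w', k w' = k w * c) → c = 1)
    (h2 : ∀ y z, y ≠ x → z ≠ x → ∃ g : G, (∀ a ∈ A, g * a * g⁻¹ ∈ A) ∧
      (∀ w, ∃ w', g * k w * g⁻¹ ∈ zpowers (k w')) ∧ g * k x * g⁻¹ ∈ zpowers (k x) ∧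
      g * k y * g⁻¹ ∈ zpowers (k z))
    {y z z' : I} (hy : y ≠ x) (hz : z ≠ x) (hz' : z' ≠ x) (hzy : z ≠ y) (hzy' : z' ≠ y)
    (hzz : z ≠ z') : False := by
  have : IsMulCommutative A := ⟨⟨fun a b => Subtype.ext (hA a a.2 b b.2)⟩⟩
  let φ : ∀ g : G, (∀ a ∈ A, g * a * g⁻¹ ∈ A) → A →* A := fun g hg =>
    ((MulAut.conj g).toMonoidHom.comp A.subtype).codRestrict A fun a => hg a a.2
  have φi : ∀ g hg, Function.Injective (φ g hg) := fun g hg a b e =>
    Subtype.ext ((MulAut.conj g).injective (congrArg Subtype.val e :))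
  have φz : ∀ g hg w w', g * k w * g⁻¹ ∈ zpowers (k w') →
      φ g hg ⟨k w, hk w⟩ ∈ zpowers (⟨k w', hk w'⟩ : A) := by
    rintro g hg w w' ⟨i, e⟩
    exact ⟨i, Subtype.ext e⟩
  refine s2_comm hr (B.subgroupOf A) (fun a => Subtype.ext (hp a a.2)) (fun u => ⟨k u, hk u⟩)
    (fun u v e => inj (congrArg Subtype.val e)) x hb hx (fun u => ?_)
    (fun c hc h => Subtype.ext (htr _ hc fun w => (h w).imp fun w' e => congrArg Subtype.val e))
    (fun y z hy hz => ?_) hy hz hz' hzy hzy' hzz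
  · obtain ⟨g, h1, h2, h3, h4⟩ := hΓ u
    exact ⟨φ g h1, φi g h1, fun b hb => Subtype.ext (h2 _ hb),
      fun w => (h3 w).imp fun w' => φz g h1 w w', φz g h1 _ _ h4⟩
  · obtain ⟨g, h1, h3, h4, h5⟩ := h2 y z hy hz
    exact ⟨φ g h1, φi g h1, fun w => (h3 w).imp fun w' => φz g h1 w w', φz g h1 _ _ h4,
      φz g h1 _ _ h5⟩

end Cfsg.Agent.TwoTr.TI
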